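import Cfsg.Agent.H501.RowTwF

/-!
# All elements of odd order of `²F₄(q)` are real (helper496)

`Y = D.group k`, `k` algebraically closed; `σ` an automorphism of `Y` with Lang's theorem for the groups
`MM t = ⟨X a : a(t) = 1⟩` and the automorphisms `conj n * σ`, `n ∈ N`, fixing `t`.

* `exists_real'` : every `p'`-element `x` of `Y^σ` is inverted by an element of `Y^σ` (not only some element of the same
  order, as in `H501.TwReal`);
* `lang_S` : Lang's theorem for `conj n * al * phi m`, `F₄`, characteristic two, and groups generated by root groups;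
* `real_TwF` : **every element of odd order of `²F₄(q)` is inverted by an element of `²F₄(q)`.**
-/

set_option autoImplicit false
set_option linter.unusedSectionVars false

namespace Cfsg.Agent.H496.Ccp.TwFReal

open CoxeterSystem Cfsg Cfsg.Lie Cfsg.Lie.ChevalleyDatum
open Cfsg.Agent.ChevalleyStructure Cfsg.Agent.ChevalleyStructure.Elts Cfsg.Agent.ChevalleyStructure.CoxeterGeom
  Cfsg.Agent.ChevalleyStructure.CoxeterGeomTypes Cfsg.Agent.ChevalleyStructure.NPerm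
open Cfsg.Agent.Tits.Roots Cfsg.Agent.Tits.Core Cfsg.Agent.Nodes Cfsg.Agent.Nodes.Reps Cfsg.Agent.Nodes.BNOf
  Cfsg.Agent.Nodes.RGDChev Cfsg.Agent.Nodes.Bruhat Cfsg.Agent.Nodes.SubComb Cfsg.Agent.Nodes.Coroot
open Cfsg.Agent.KFacts.RgdField Cfsg.Agent.KFacts.RgdChevCoord Cfsg.Agent.BpExc.TorCent Cfsg.Agent.BpExc.TorChev
open Cfsg.Agent.GpExc.Field Cfsg.Agent.BpExc.Tow Cfsg.Agent.BpExc.TowChev Cfsg.Agent.BpExc.Fr
  Cfsg.Agent.BpExc.LangFr Cfsg.Agent.LangThm Cfsg.Agent.BpExc Cfsg.Agent.H129.TorusChar Cfsg.Agent.H129.TorusCent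
  Cfsg.Agent.H129.TorusTw Cfsg.Agent.H129.TorusMain Cfsg.Agent.H720.TorusReal Cfsg.Agent.H501.TwReal

universe u v

section General

variable {D : ChevalleyDatum} {l : ℕ} {M : CoxeterMatrix (Fin l)} (hp : IsType D l M) {k : Type u} [Field k]
  {W : Type*} [Group W] (cs : CoxeterSystem M W) {p : ℕ} [Fact p.Prime] [CharP k p] {σ : MulAut ↥(D.group k)}

/-- the group generated by the root groups centralised by `t` -/
noncomputable def MT (t : ↥(D.group k)) : Subgroup ↥(D.group k) :=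
  Cfsg.Agent.BpExc.TorCent.MM cs hp.isCartan (XX D l k) (ch hp) t

/-- Lang's theorem for the centralisers. -/
def LangC (hN : NSys M (TT D k) (nc hp k)) (σ : MulAut ↥(D.group k)) : Prop :=
  ∀ (t n : ↥(D.group k)) (w : W), t ∈ TT D k → Rp cs hN w n → n * σ t * n⁻¹ = t →
    ∀ m ∈ MT hp cs t, ∃ v ∈ MT hp cs t, m = v⁻¹ * (n * σ v * n⁻¹)

/-- **Every `p'`-element of `Y^σ` is real in `Y^σ`.** -/
theorem exists_real' [IsAlgClosed k] [Finite W] (hA : Cfsg.Agent.BpExc.TorAll.HAlg p k) (hk : LocFin k)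
    (hN : NSys M (TT D k) (nc hp k)) {d' : ℕ} {B' : Fin l → Fin l → ℤ} (hB : InvC D l d' B')
    (hd' : d' ≠ 0) (hT : ∀ s ∈ TT D k, σ s ∈ TT D k) (hT' : ∀ s, σ s ∈ TT D k → s ∈ TT D k) {N : ℕ} (h1N : 1 < N)
    (hsq : ∀ s ∈ TT D k, σ (σ s) = s ^ N) (hlangC : LangC hp cs hN σ)
    {w₀ : W} (hneg : ∀ x, rep cs hp.isCartan w₀ x = -x) {x : ↥(D.group k)}
    (hx : σ x = x) {m : ℕ} (hm : m ≠ 0) (hmp : m.Coprime p) (hxm : x ^ m = 1) :
    ∃ y : ↥(D.group k), σ y = y ∧ y * x * y⁻¹ = x⁻¹ := by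
  obtain ⟨y, hy⟩ := H944.TorAnyChev.exists_conj_mem_TT hp p hA hm hmp hxm
  set t := y * x * y⁻¹ with htdef
  have ht : t ∈ TT D k := hy
  have hσt : σ t ∈ TT D k := hT t ht
  have h1 : (y * (σ y)⁻¹) * σ t = t * (y * (σ y)⁻¹) := by
    rw [htdef, map_mul, map_mul, map_inv, hx]
    group
  have H := tow hp cs hk p
  have C := coordsL hp cs hk p
  rw [← TL_eq hp hk, ← XL_eq hp hk] at C
  have ht' : t ∈ TL (Tj hp (k := k)) := by rw [TL_eq hp hk]; exact ht
  have hσt' : σ t ∈ TL (Tj hp (k := k)) := by rw [TL_eq hp hk]; exact hσt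
  have hcG : y * (σ y)⁻¹ ∈ GG cs hp.isCartan (TL (Tj hp (k := k))) (XL (Xj hp)) := by
    rw [GG_eq_top hp cs hk]; exact Subgroup.mem_top _
  obtain ⟨m', hm'M, w, n, hn, hnt, hc'⟩ := BpExc.Fr.exists_form H C hσt' ht' hcG h1
  have hn' : Rp cs hN w n := by
    have key : ∀ (T : Subgroup ↥(D.group k)) (h1 : NSys M T (nc hp k)) (h2 : T = TT D k), Rp cs h1 w n →
        Rp cs hN w n := by
      intro T h1 h2 h3
      subst h2
      exact h3
    exact key _ _ (TL_eq hp hk) hn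
  have hm'T : m' ∈ MT hp cs t := by
    rw [XL_eq hp hk] at hm'M
    exact hm'M
  have hnt' : n * σ t * n⁻¹ = t := by rw [hnt]; group
  -- correct `y`
  obtain ⟨v₀, hv₀, hvm⟩ := hlangC t n w ht hn' hnt' m' hm'T
  have hv₀t : v₀ * t = t * v₀ := by
    have C' := coordsL hp cs hk p
    have h2 := MM_le_centralizer C' ht hv₀
    rw [Subgroup.mem_centralizer_singleton_iff] at h2
    exact h2
  obtain ⟨z, hz⟩ : ∃ z, z = (v₀ * y)⁻¹ := ⟨_, rfl⟩
  have hzx : z * t * z⁻¹ = x := by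
    rw [hz, htdef]
    have h3 : v₀⁻¹ * t * v₀ = t := by rw [mul_assoc, ← hv₀t]; group
    calc (v₀ * y)⁻¹ * (y * x * y⁻¹) * (v₀ * y)⁻¹⁻¹ = y⁻¹ * (v₀⁻¹ * t * v₀) * y := by rw [htdef]; group
      _ = x := by rw [h3, htdef]; group
  have hσz : σ z = z * n := by
    have h4 : v₀⁻¹ * n * σ v₀ = y * (σ y)⁻¹ := by
      rw [hc', hvm]
      group
    have h5 : n = (v₀ * y) * (σ (v₀ * y))⁻¹ := by
      rw [map_mul]
      calc n = v₀ * (v₀⁻¹ * n * σ v₀) * (σ v₀)⁻¹ := by group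
        _ = _ := by rw [h4]; group
    rw [hz, map_inv, h5]
    group
  -- the inverting element
  obtain ⟨v, hv⟩ := exists_rp cs hN w₀
  have hvt : ∀ s ∈ TT D k, v * s * v⁻¹ = s⁻¹ := fun s hs => conj_neg hp cs hk p hneg hv hs
  have hvn : ∀ s, v * s * v⁻¹ ∈ TT D k ↔ s ∈ TT D k := fun s =>
    (Subgroup.mem_normalizer_iff.1 hv.mem_normalizer s).symm
  -- `α = conj n ∘ σ`
  set α : MulAut ↥(D.group k) := MulAut.conj n * σ with hα
  have hαn : ∀ y, α y = n * σ y * n⁻¹ := fun y => rfl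
  have hnn : ∀ s, n * s * n⁻¹ ∈ TT D k ↔ s ∈ TT D k := fun s =>
    (Subgroup.mem_normalizer_iff.1 hn'.mem_normalizer s).symm
  have hαT : ∀ s ∈ TT D k, α s ∈ TT D k := fun s hs => (hnn _).2 (hT s hs)
  have hαT' : ∀ s, α s ∈ TT D k → s ∈ TT D k := fun s hs => hT' s ((hnn _).1 hs)
  -- a power of `α` is a power map
  set b := n * σ n with hb
  have hα2 : ∀ s ∈ TT D k, α (α s) = b * s ^ N * b⁻¹ := by
    intro s hs
    rw [hαn, hαn, map_mul, map_mul, map_inv, hsq s hs, hb]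
    group
  have hbT : ∀ s ∈ TT D k, b * s * b⁻¹ ∈ TT D k := by
    intro s hs
    obtain ⟨r, hr⟩ := σ.surjective s
    have hr' : r ∈ TT D k := hT' r (by rw [hr]; exact hs)
    have e1 : b * s * b⁻¹ = α (n * r * n⁻¹) := by
      rw [hαn, map_mul, map_mul, map_inv, hr, hb]
      group
    rw [e1]
    exact hαT _ ((hnn r).2 hr')
  obtain ⟨w₂, hw₂⟩ := exists_rp_of_normalizer hp cs hk p hN hB hd' hbT
  obtain ⟨M', hM', hwM⟩ := (isOfFinOrder_of_finite w₂).exists_pow_eq_one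
  have hRpow : ∀ j : ℕ, Rp cs hN (w₂ ^ j) (b ^ j) := by
    intro j
    induction j with
    | zero => rw [pow_zero, pow_zero]; exact rp_one
    | succ j ih => rw [pow_succ, pow_succ]; exact ih.mul hw₂
  have hbM : b ^ M' ∈ TT D k := by
    have h2 := hRpow M'
    rw [hwM] at h2
    exact h2.mem_of_one
  have hbj : ∀ j : ℕ, ∀ s ∈ TT D k, b ^ j * s * (b ^ j)⁻¹ ∈ TT D k := fun j s hs =>
    (Subgroup.mem_normalizer_iff.1 (hRpow j).mem_normalizer s).1 hs
  have hpow2 : ∀ j : ℕ, ∀ s ∈ TT D k, (α ^ (2 * j)) s = b ^ j * s ^ N ^ j * (b ^ j)⁻¹ := by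
    intro j
    induction j with
    | zero => intro s _; simp
    | succ j ih =>
      intro s hs
      have e1 : (α ^ (2 * (j + 1))) s = α (α ((α ^ (2 * j)) s)) := by
        have e0 : α ^ (2 * (j + 1)) = α * (α * α ^ (2 * j)) := by
          rw [← pow_succ', ← pow_succ']
          rfl
        rw [e0]
        rfl
      rw [e1, ih s hs, hα2 _ (hbj j _ (pow_mem hs _)), conj_pow, ← pow_mul, ← pow_succ]
      rw [pow_succ' b j]
      group
  have hpowM : ∀ s ∈ TT D k, (α ^ (2 * M')) s = s ^ N ^ M' := by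
    intro s hs
    rw [hpow2 M' s hs, TT_comm hp hbM (pow_mem hs _), mul_inv_cancel_right]
  -- `c = v⁻¹ α(v)`
  set c := v⁻¹ * α v with hc
  have hcT : c ∈ TT D k := by
    refine mem_TT_of_central hp cs hk p hB hd' fun s hs => ?_
    obtain ⟨r, hr⟩ := α.surjective s
    have hr' : r ∈ TT D k := hαT' r (by rw [hr]; exact hs)
    have e1 : α v * s * (α v)⁻¹ = s⁻¹ := by
      have e4 := congrArg α (hvt r hr')
      rwa [map_mul, map_mul, map_inv, map_inv, hr] at e4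
    have e2 := hvt s hs
    rw [hc]
    have e3 : α v * s = v * s * v⁻¹ * α v := by
      rw [e2, ← e1]; group
    rw [mul_assoc, e3]
    group
  have hNM : 1 < N ^ M' := Nat.one_lt_pow hM'.ne' h1N
  obtain ⟨s, hs, h2⟩ := torus_lang' hp hB hd' hαT hNM hpowM hcT
  have h3 : α (v * s) = v * s := by
    rw [map_mul]
    have e1 : α v = v * c := by rw [hc]; group
    rw [e1, mul_assoc, ← h2]
  refine ⟨z * (v * s) * z⁻¹, ?_, ?_⟩
  · rw [map_mul, map_mul, map_inv, hσz]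
    rw [hαn] at h3
    calc z * n * σ (v * s) * (z * n)⁻¹ = z * (n * σ (v * s) * n⁻¹) * z⁻¹ := by group
      _ = z * (v * s) * z⁻¹ := by rw [h3]
  · rw [← hzx]
    have h4 : s * t = t * s := TT_comm hp hs ht
    calc z * (v * s) * z⁻¹ * (z * t * z⁻¹) * (z * (v * s) * z⁻¹)⁻¹
        = z * (v * (s * t) * s⁻¹ * v⁻¹) * z⁻¹ := by group
      _ = z * (v * t * v⁻¹) * z⁻¹ := by rw [h4]; group
      _ = (z * t * z⁻¹)⁻¹ := by rw [hvt t ht]; group

end General

/-! ### Lang's theorem for `F₄`, characteristic two -/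

section Lang

open Cfsg.Agent.H79.SimpleGen (xS nS nS_def)
open Cfsg.Agent.H296.FFour (hp4 br la tab al al_xS fld_xS phi_xS al_phi_sq lang4 sg sg_xS ext4 fix_le le_fix tab2)
open Cfsg.Agent.BpExc.FamUntw (phi)
open Cfsg.Agent.BpExc.FamInst (phi_frob)
open Cfsg.Agent.H296.Core

variable {k : Type u} [Field k] [CharP k 2] [IsAlgClosed k] [PerfectRing k 2]

/-- **Lang's theorem for groups generated by root elements of `F₄` and `conj n * al * phi m`.** -/
theorem lang_S (m : ℕ) (n : ↥(chevF4.group k)) (S : Set ℕ) (hS48 : ∀ r ∈ S, r < 48)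
    (hS : ∀ r ∈ S, ∃ s ∈ S, ∀ t : k, ∃ u : k,
      n * (al k * phi chevF4 k 2 m : MulAut ↥(chevF4.group k)) (xS hp4.inList r t) * n⁻¹ = xS hp4.inList s u)
    {c : GL chevF4.Idx k} (hc : c ∈ Cfsg.Agent.LangThm.MM hp4.inList S k) (hcG : c ∈ chevF4.group k) :
    ∃ z : ↥(chevF4.group k), (z : GL chevF4.Idx k) ∈ Cfsg.Agent.LangThm.MM hp4.inList S k ∧
      (⟨c, hcG⟩ : ↥(chevF4.group k)) = z⁻¹ * (n * (al k * phi chevF4 k 2 m : MulAut ↥(chevF4.group k)) z * n⁻¹) := by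
  have : Fact (Nat.Prime 2) := ⟨Nat.prime_two⟩
  classical
  let X : S → GL chevF4.Idx (Polynomial k) := fun r => xP hp4.inList (r : ℕ) Polynomial.X
  have h2 : Gam X k = Cfsg.Agent.LangThm.MM hp4.inList S k := gam_eq hp4.inList S
  have hle : Cfsg.Agent.LangThm.MM hp4.inList S k ≤ chevF4.group k := by
    unfold Cfsg.Agent.LangThm.MM
    rw [Subgroup.closure_le]
    rintro g ⟨r, hr, t, rfl⟩
    exact xG_mem_group hp4.inList r t
  let s : MulAut ↥(chevF4.group k) := MulAut.conj n * (al k * phi chevF4 k 2 m)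
  have hs : ∀ z, s z = n * (al k * phi chevF4 k 2 m : MulAut ↥(chevF4.group k)) z * n⁻¹ := fun z => rfl
  -- `s` preserves the group
  have hsM : ∀ g : ↥(chevF4.group k), (g : GL chevF4.Idx k) ∈ Cfsg.Agent.LangThm.MM hp4.inList S k →
      ((s g : ↥(chevF4.group k)) : GL chevF4.Idx k) ∈ Cfsg.Agent.LangThm.MM hp4.inList S k := by
    have key : Cfsg.Agent.LangThm.MM hp4.inList S k ≤
        (((Cfsg.Agent.LangThm.MM hp4.inList S k).subgroupOf (chevF4.group k)).comap s.toMonoidHom).map (chevF4.group k).subtype := by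
      conv_lhs => unfold Cfsg.Agent.LangThm.MM
      rw [Subgroup.closure_le]
      rintro g ⟨r, hr, t, rfl⟩
      refine ⟨xS hp4.inList r t, ?_, rfl⟩
      obtain ⟨s', hs', h⟩ := hS r hr
      obtain ⟨u, hu⟩ := h t
      show s (xS hp4.inList r t) ∈ (Cfsg.Agent.LangThm.MM hp4.inList S k).subgroupOf (chevF4.group k)
      rw [hs, hu, Subgroup.mem_subgroupOf]
      exact Subgroup.subset_closure ⟨s', hs', u, rfl⟩
    intro g hg
    obtain ⟨g', hg', e⟩ := key hg
    have e' : g' = g := Subtype.ext e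
    rw [← e']
    exact hg'
  let inc : ↥(Gam X k) →* ↥(chevF4.group k) := Subgroup.inclusion (h2.le.trans hle)
  have hinc : ∀ g : ↥(Gam X k), ((inc g : ↥(chevF4.group k)) : GL chevF4.Idx k) = g := fun g => rfl
  let F : Monoid.End ↥(Gam X k) :=
    { toFun := fun g => ⟨(s (inc g) : ↥(chevF4.group k)), by
        exact h2.ge (hsM _ (h2.le g.2))⟩
      map_one' := Subtype.ext (by
        show ((s (inc 1) : ↥(chevF4.group k)) : GL chevF4.Idx k) = 1
        rw [map_one, map_one]; rfl)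
      map_mul' := fun g h => Subtype.ext (by
        show ((s (inc (g * h)) : ↥(chevF4.group k)) : GL chevF4.Idx k) =
          ((s (inc g) : ↥(chevF4.group k)) : GL chevF4.Idx k) * ((s (inc h) : ↥(chevF4.group k)) : GL chevF4.Idx k)
        rw [map_mul, map_mul]; rfl) }
  have hF' : ∀ g : ↥(Gam X k), inc (F g) = s (inc g) := fun g => Subtype.ext rfl
  -- the polynomials
  have hpoly : ∀ r : S, ∃ s' : S, ∃ P : Polynomial k, ∀ t : k,
      ((s (xS hp4.inList r t) : ↥(chevF4.group k)) : GL chevF4.Idx k) = xG hp4.inList s' (P.eval t) := by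
    intro r
    obtain ⟨s', hs', h⟩ := hS r r.2
    have hr48 := hS48 r r.2
    have hpos : 0 < 2 ^ m * la r := by
      have h3 := (tab r hr48).2.2
      have h4 : la r ≠ 0 := by
        intro h0
        rw [h0, zero_mul] at h3
        omega
      positivity
    have h5 : ∀ t : k, ∃ u : k, (n : GL chevF4.Idx k) * xG hp4.inList (br r) t * (n : GL chevF4.Idx k)⁻¹ =
        xG hp4.inList s' u := by
      intro t
      obtain ⟨t', ht'⟩ : ∃ t' : k, t' ^ (2 ^ m * la r) = t := IsAlgClosed.exists_pow_nat_eq t hpos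
      obtain ⟨u, hu⟩ := h t'
      refine ⟨u, ?_⟩
      rw [MulAut.mul_apply, phi_xS, al_xS hr48, ← pow_mul, ht'] at hu
      exact congrArg Subtype.val hu
    obtain ⟨P, hP⟩ := exists_poly hp4.inList (n : GL chevF4.Idx k) h5
    refine ⟨⟨s', hs'⟩, P.comp (Polynomial.X ^ (2 ^ m * la r)), fun t => ?_⟩
    rw [hs, MulAut.mul_apply, phi_xS, al_xS hr48, ← pow_mul]
    show (n : GL chevF4.Idx k) * xG hp4.inList (br r) (t ^ (2 ^ m * la r)) * (n : GL chevF4.Idx k)⁻¹ = _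
    rw [hP, Polynomial.eval_comp, Polynomial.eval_pow, Polynomial.eval_X]
  choose ρ P hP using hpoly
  have hX0 : ∀ i, ev (0 : k) (X i) = 1 := by
    intro i
    rw [ev_xP, Polynomial.eval_X, xG_zero]
  have hF : ∀ (r : S) (a : k), (F ⟨ev a (X r), ev_mem r a⟩ : GL chevF4.Idx k) =
      ev a (ev (P r) (X (ρ r)) : GL chevF4.Idx (Polynomial k)) := by
    intro r a
    have e1 : inc ⟨ev a (X r), ev_mem r a⟩ = xS hp4.inList r a := by
      apply Subtype.ext
      rw [hinc]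
      show ev a (X r) = _
      rw [ev_xP, Polynomial.eval_X]
      rfl
    show ((s (inc ⟨ev a (X r), ev_mem r a⟩) : ↥(chevF4.group k)) : GL chevF4.Idx k) = _
    rw [e1, hP]
    have h3 := mp_ev (Polynomial.aeval a : Polynomial k →ₐ[k] k) (P r) (X (ρ r))
    have h4 : ev a (ev (P r) (X (ρ r))) = ev ((P r).eval a) (X (ρ r)) := by
      rw [show (P r).eval a = Polynomial.aeval a (P r) by simp [Polynomial.aeval_def]]
      exact h3
    rw [h4, ev_xP, Polynomial.eval_X]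
  have hJ : ∀ g : ↥(Gam X k), (((F ^ 2) g : ↥(Gam X k)) : GL chevF4.Idx k) =
      ((n * (al k * phi chevF4 k 2 m : MulAut ↥(chevF4.group k)) n : ↥(chevF4.group k)) : GL chevF4.Idx k) *
        frob 2 (2 * m + 1) (g : GL chevF4.Idx k) *
      ((n * (al k * phi chevF4 k 2 m : MulAut ↥(chevF4.group k)) n : ↥(chevF4.group k)) : GL chevF4.Idx k)⁻¹ := by
    intro g
    have e1 : inc ((F ^ 2) g) = s (s (inc g)) := by
      rw [pow_two]
      show inc (F (F g)) = _
      rw [hF', hF']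
    have e2 : s (s (inc g)) = (n * (al k * phi chevF4 k 2 m : MulAut ↥(chevF4.group k)) n) *
        phi chevF4 k 2 (2 * m + 1) (inc g) * (n * (al k * phi chevF4 k 2 m : MulAut ↥(chevF4.group k)) n)⁻¹ := by
      have e3 : phi chevF4 k 2 (2 * m + 1) (inc g) = (al k * phi chevF4 k 2 m : MulAut ↥(chevF4.group k))
          ((al k * phi chevF4 k 2 m : MulAut ↥(chevF4.group k)) (inc g)) := by
        rw [← MulAut.mul_apply]
        exact (DFunLike.congr_fun (al_phi_sq m) (inc g)).symm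
      rw [e3, hs, hs, map_mul, map_mul, map_inv]
      group
    rw [← hinc, e1, e2]
    show _ * ((phi chevF4 k 2 (2 * m + 1) (inc g) : ↥(chevF4.group k)) : GL chevF4.Idx k) * _ = _
    rw [phi_frob]
    rfl
  obtain ⟨z, hz⟩ := lang (X := X) 2 (2 * m + 1) 2 (by omega) hX0 F
    (Y := fun r => ev (P r) (X (ρ r))) (fun i => ev_mem _ _) hF _ hJ ⟨c, by rw [h2]; exact hc⟩
  refine ⟨inc z, ?_, ?_⟩
  · rw [hinc, ← h2]
    exact z.2
  · have h3 := congrArg inc hz
    rw [map_mul, map_inv, hF'] at h3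
    rw [← hs, ← h3]
    rfl

variable {W : Type*} [Group W] (cs : CoxeterSystem CoxeterMatrix.F₄ W)

/-- **Lang's theorem for the centralisers of the elements of the torus.** -/
theorem langC [Fact (Nat.Prime 2)] (hk : LocFin k) (hN : NSys CoxeterMatrix.F₄ (TT chevF4 k) (nc hp4 k)) (m : ℕ) :
    LangC hp4 cs hN (al k * phi chevF4 k 2 m : MulAut ↥(chevF4.group k)) := by
  intro t n w ht hn hnt c hc
  have H := tow hp4 cs hk 2
  have C := coordsL hp4 cs hk 2
  set σ : MulAut ↥(chevF4.group k) := al k * phi chevF4 k 2 m with hσ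
  set S : Set ℕ := {r | r < 48 ∧ vec chevF4 4 r ∈ Sx cs hp4.isCartan (ch hp4) t} with hSdef
  have hroot : ∀ {r : ℕ}, r < 48 → IsRoot cs hp4.isCartan (vec chevF4 4 r) := fun {r} hr =>
    (isRoot_iff hp4 cs _).2 ⟨r, hr, rfl⟩
  have hcomm : ∀ y, y * t = t * y → (n * σ y * n⁻¹) * t = t * (n * σ y * n⁻¹) := by
    intro y hy
    conv_lhs => rw [← hnt]
    conv_rhs => rw [← hnt]
    calc n * σ y * n⁻¹ * (n * σ t * n⁻¹) = n * (σ y * σ t) * n⁻¹ := by group
      _ = n * (σ t * σ y) * n⁻¹ := by rw [← map_mul, hy, map_mul]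
      _ = _ := by group
  have hS : ∀ r ∈ S, ∃ s ∈ S, ∀ t : k, ∃ u : k, n * σ (xS hp4.inList r t) * n⁻¹ = xS hp4.inList s u := by
    rintro r ⟨hr, hrt⟩
    have hbr : br r < 48 := (tab r hr).1
    have h1 := hroot hbr
    have h2 : IsRoot cs hp4.isCartan (rep cs hp4.isCartan w (vec chevF4 4 (br r))) := h1.act w
    obtain ⟨s, hs, hsv⟩ := (isRoot_iff hp4 cs _).1 h2
    have hmem : ∀ u : k, n * σ (xS hp4.inList r u) * n⁻¹ ∈ XX chevF4 4 k (vec chevF4 4 s) := by
      intro u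
      have h3 : xS hp4.inList (br r) ((u ^ 2 ^ m) ^ la r) ∈ XX chevF4 4 k (vec chevF4 4 (br r)) :=
        (mem_XX_vec hp4 hbr).2 ⟨_, rfl⟩
      have h4 := (fr_conj hp4 cs hk 2 hn).map _ h1 (xS hp4.inList (br r) ((u ^ 2 ^ m) ^ la r))
      have h5 := h4.2 h3
      rw [repAut_apply, ← hsv] at h5
      rw [hσ, MulAut.mul_apply, phi_xS, al_xS hr]
      exact h5
    refine ⟨s, ⟨hs, ?_⟩, fun u => ?_⟩
    · refine mem_Sx_of_centralizer C ht (hroot hs) (hmem 1) ?_ ?_
      · intro h3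
        have h4 : xS hp4.inList r (1 : k) = 1 := by
          apply σ.injective
          rw [map_one]
          calc σ (xS hp4.inList r (1 : k)) = n⁻¹ * (n * σ (xS hp4.inList r 1) * n⁻¹) * n := by group
            _ = 1 := by rw [h3]; group
        have h5 : xG hp4.inList r (1 : k) = 1 := congrArg Subtype.val h4
        exact one_ne_zero ((xG_eq_one_iff hp4.inList hr (1 : k)).1 h5)
      · rw [Subgroup.mem_centralizer_singleton_iff]
        refine hcomm _ ?_
        have h3 := X_le_centralizer C ht hrt ((mem_XX_vec hp4 hr).2 ⟨(1 : k), rfl⟩ : xS hp4.inList r (1 : k) ∈ _)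
        rwa [Subgroup.mem_centralizer_singleton_iff] at h3
    · obtain ⟨v, hv⟩ := (mem_XX_vec hp4 hs).1 (hmem u)
      exact ⟨v, Subtype.ext hv⟩
  have hto : (c : GL chevF4.Idx k) ∈ Cfsg.Agent.LangThm.MM hp4.inList S k := by
    have h1 : MT hp4 cs t ≤ (Cfsg.Agent.LangThm.MM hp4.inList S k).subgroupOf (chevF4.group k) := by
      refine iSup_le ?_
      rintro ⟨a, ha⟩ x hx
      obtain ⟨r, hr, rfl⟩ := (isRoot_iff hp4 cs a).1 ha.1
      obtain ⟨t', ht'⟩ := (mem_XX_vec hp4 hr).1 hx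
      rw [Subgroup.mem_subgroupOf, ht']
      exact Subgroup.subset_closure ⟨r, ⟨hr, ha⟩, t', rfl⟩
    exact h1 hc
  have hfrom : ∀ g : ↥(chevF4.group k), (g : GL chevF4.Idx k) ∈ Cfsg.Agent.LangThm.MM hp4.inList S k →
      g ∈ MT hp4 cs t := by
    have key : Cfsg.Agent.LangThm.MM hp4.inList S k ≤ (MT hp4 cs t).map (chevF4.group k).subtype := by
      unfold Cfsg.Agent.LangThm.MM
      rw [Subgroup.closure_le]
      rintro g ⟨r, ⟨hr, ha⟩, u, rfl⟩
      exact ⟨xS hp4.inList r u, RGD.le_Sup ha ((mem_XX_vec hp4 hr).2 ⟨u, rfl⟩), rfl⟩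
    intro g hg
    obtain ⟨g', hg', e⟩ := key hg
    have e' : g' = g := Subtype.ext e
    rw [← e']
    exact hg'
  obtain ⟨z, hz, hcz⟩ := lang_S m n S (fun r hr => hr.1) hS hto c.2
  exact ⟨z, hfrom z hz, hcz⟩

end Lang

/-! ### the finite group -/

section Main

open Cfsg.Agent.H296.FFour (hp4 br la tab al al_xS fld_xS phi_xS al_phi_sq lang4 sg sg_xS ext4 fix_le le_fix tab2)
open Cfsg.Agent.H501.RowTwF

local notation "phiA" => Cfsg.Agent.BpExc.FamUntw.phi chevF4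

local notation "phiB" => Cfsg.Agent.H129.TorusUntw.phi chevF4

/-- **All elements of odd order of `²F₄(q)` are real.** -/
theorem real_TwF {F : Type u} [Field F] [Fintype F] {m : ℕ} (hF : Fintype.card F = 2 ^ (2 * m + 1))
    (g : ↥(twistedF4 F (2 ^ m))) {r : ℕ} (hr0 : r ≠ 0) (hr2 : r.Coprime 2) (hgr : g ^ r = 1) :
    ∃ c : ↥(twistedF4 F (2 ^ m)), c * g * c⁻¹ = g⁻¹ := by
  have hf2 : Fact (Nat.Prime 2) := ⟨Nat.prime_two⟩
  have hF2 : CharP F 2 := by
    obtain ⟨p, hp⟩ := CharP.exists F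
    have : Fact p.Prime := ⟨CharP.char_is_prime F p⟩
    obtain ⟨n, h1, h2⟩ := FiniteField.card F p
    rw [hF] at h2
    have h3 : p ∣ 2 ^ (2 * m + 1) := by rw [h2]; exact dvd_pow_self p n.ne_zero
    have h4 := (Nat.prime_dvd_prime_iff_eq h1 Nat.prime_two).1 (h1.dvd_of_dvd_pow h3)
    rwa [h4] at hp
  have hPF : PerfectRing F 2 := inferInstance
  have h1 := Cfsg.Agent.H296.Core.charP_closure F 2
  have hk := Cfsg.Agent.H296.Core.locFin_closure F 2
  have hPk : PerfectRing (AlgebraicClosure F) 2 := inferInstance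
  have hA : Cfsg.Agent.BpExc.TorAll.HAlg 2 (AlgebraicClosure F) := Cfsg.Agent.H944.RootVals.hAlg_closure 2 F
  set k := AlgebraicClosure F
  let f : F →+* k := algebraMap F k
  have cs := CoxeterMatrix.F₄.toCoxeterSystem
  have : Finite CoxeterMatrix.F₄.Group := finite_W hp4 cs
  obtain ⟨w₀, hw₀⟩ := Cfsg.Agent.H720.RowsNeg.exists_neg Cfsg.Agent.H130.WeylTab.lists_F4 cs hp4.isCartan
    [0, 1, 2, 3] 6 (by decide +kernel)
  have hN := Cfsg.Agent.H129.TorusUntw.nsys_of_locFin hp4 cs hk 2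
  set σ : MulAut ↥(chevF4.group k) := al k * phiA k 2 m with hσ
  have hFr : Fr cs hp4.isCartan (TT chevF4 k) (XX chevF4 4 k) (phiB k 2 (2 * m + 1))
      (AddEquiv.refl (Fin 4 → ℤ)) := Cfsg.Agent.H129.TorusUntw.fr_phi hp4 cs
  have hFr' : Fr cs hp4.isCartan (TT chevF4 k) (XX chevF4 4 k) (phiB k 2 m)
      (AddEquiv.refl (Fin 4 → ℤ)) := Cfsg.Agent.H129.TorusUntw.fr_phi hp4 cs
  have hσσ : ∀ y, σ (σ y) = phiB k 2 (2 * m + 1) y := by
    intro y
    rw [← phi_eq_phi, ← al_phi_sq]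
    rfl
  have hT : ∀ s ∈ TT chevF4 k, σ s ∈ TT chevF4 k := by
    intro s hs
    refine al_TT _ ?_
    rw [phi_eq_phi]
    exact (hFr'.tor s).2 hs
  have hT' : ∀ s, σ s ∈ TT chevF4 k → s ∈ TT chevF4 k := by
    intro s hs
    have h2 := hT _ hs
    rw [hσσ] at h2
    exact (hFr.tor s).1 h2
  have hsq : ∀ s ∈ TT chevF4 k, σ (σ s) = s ^ 2 ^ (2 * m + 1) := by
    intro s hs
    rw [hσσ]
    refine cX_inj hp4 ((hFr.tor s).2 hs) (pow_mem hs _) fun i => ?_
    rw [cX_pow hp4 hs]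
    exact cX_sigma hp4 cs Cfsg.Agent.H129.TorusUntw.isFrob_phi hFr hs (sr i)
  obtain ⟨τ, hτ⟩ : ∃ τ : F ≃+* F, ∀ a, τ a = a ^ 2 ^ m :=
    ⟨iterateFrobeniusEquiv F 2 m, fun a => by rw [iterateFrobeniusEquiv_def]⟩
  -- the element
  obtain ⟨a, ha, hfa⟩ := le_fix hF hτ g.2
  have har : a ^ r = 1 := by
    apply Subtype.ext
    rw [Subgroup.coe_pow, ha, Subgroup.coe_one, ← Subgroup.coe_pow, hgr, Subgroup.coe_one]
  have hinj := emb_injective hp4.inList f
  obtain ⟨y, hσy, hyx⟩ := exists_real' hp4 cs hA hk hN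
    invC_F4 one_ne_zero hT hT' (N := 2 ^ (2 * m + 1))
    (Nat.one_lt_pow (by omega) (by norm_num)) hsq (langC cs hk hN m) hw₀ (x := emb hp4.inList f a)
    (by rw [hσ, nat_sg f hτ, hfa]) hr0 hr2 (by rw [← map_pow, har, map_one])
  have hdesc : ∀ y : ↥(chevF4.group k), σ y = y → ∃ b : ↥(chevF4.group F), emb hp4.inList f b = y ∧
      (b : GL chevF4.Idx F) ∈ twistedF4 F (2 ^ m) := by
    intro y hy
    have h2 : phiB k 2 (2 * m + 1) y = y := by rw [← hσσ, hy, hy]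
    obtain ⟨b, hb⟩ := Cfsg.Agent.H129.TorusUntw.fix_range hp4 cs f hF invC_F4 one_ne_zero
      (fun a => ⟨a, pow_one a⟩) h2
    refine ⟨b, hb, fix_le hF hτ ?_⟩
    apply hinj
    rw [← nat_sg f hτ, hb]
    exact hy
  obtain ⟨c, hc, hcT⟩ := hdesc y hσy
  have hca : c * a * c⁻¹ = a⁻¹ := by
    apply hinj
    rw [map_mul, map_mul, map_inv, map_inv, hc, hyx]
  refine ⟨⟨c, hcT⟩, ?_⟩
  apply Subtype.ext
  have h2 := congrArg (fun u : ↥(chevF4.group F) => (u : GL chevF4.Idx F)) hca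
  simp only [Subgroup.coe_mul, Subgroup.coe_inv, ha] at h2
  simpa only [Subgroup.coe_mul, Subgroup.coe_inv] using h2

end Main

end Cfsg.Agent.H496.Ccp.TwFReal
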